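import Cfsg.Agent.H845.K547.Jordan
import Cfsg.Agent.KFacts.ON.Aut

/-!
# S4547, O'N: the Sylow 2-subgroups have three generators (helper845)

`T0 = ⟨c, d, g⟩` (order 256) is given by the relations of a coset enumeration, so it maps onto `C₂³`; the Sylow 2-subgroup is
`T0⟨s⟩` with an involution `s`.

* `rk_T0`, `rk_S`, `d3_ON`.
-/

set_option autoImplicit false

namespace Cfsg.Agent.H845.K547.ON

open Cfsg Cfsg.Spor Cfsg.Agent.H821.K547 Cfsg.Agent.H845.K547
open Cfsg.Agent.ONType Cfsg.Agent.ONType.TupT0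
open Cfsg.Agent.ONType.TupRow (gJ)
open Cfsg.Agent.SporadicRecognition.CosetCert (Hyp ev ev_nil ev_cons card_closure_le)
open Cfsg.Agent.SporadicRecognition.CosetCertHyp (hyp_of_checks)

universe u v

/-- the target -/
abbrev A := Multiplicative (Fin 3 → ZMod 2)

/-- the images of the letters -/
def eps : ℕ → A
  | 0 => Multiplicative.ofAdd (Pi.single 0 1)
  | 1 => Multiplicative.ofAdd (Pi.single 1 1)
  | 2 => Multiplicative.ofAdd (Pi.single 2 1)
  | 3 => Multiplicative.ofAdd (Pi.single 2 1)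
  | _ => 1

/-- the letters of the graph -/
noncomputable def gE (i : ℕ) : ON × A := (gJ i, eps i)

theorem ev_gE (w : List ℕ) : ev gE w = (ev gJ w, ev eps w) := by
  induction w with
  | nil => rfl
  | cons x w ih => rw [ev_cons, ev_cons, ev_cons, ih]; rfl

theorem rels_eps : ∀ r ∈ TupTData.rels, ev eps r = 1 := by decide +kernel

theorem hs : IsSimpleGroup ON := KFacts.ON.Words.hs

theorem hypE : Hyp TupTData.C ⊥ gE := by
  refine hyp_of_checks ⊥ gE TupTData.C TupTData.rels TupTData.subw rfl (fun x hx => ?_) (fun r hr => ?_)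
    (fun s h => absurd h (List.not_mem_nil)) (by decide +kernel)
  · obtain ⟨h1, h2⟩ := hinv hs x hx
    refine ⟨h1, Prod.ext h2 ?_⟩
    have hx4 : x < 4 := hx
    show eps x * eps (TupTData.C.inv x) = 1
    interval_cases x <;> decide +kernel
  · rw [ev_gE, rels_one hs r hr, rels_eps r hr]
    rfl

/-- the graph -/
noncomputable def D : Subgroup (ON × A) := Subgroup.closure (gE '' {x | x < TupTData.C.k})

theorem card_D : Finite D ∧ Nat.card D ≤ 256 := by
  have := card_closure_le TupTData.C ⊥ gE hypE TupTAll.part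
  rw [Subgroup.card_bot, mul_one] at this
  exact this

theorem map_D : D.map (MonoidHom.fst ON A) = T0 := by
  rw [D, MonoidHom.map_closure, ← Set.image_comp]
  rfl

theorem card_T0 : Nat.card T0 = 256 := TupS.card_T0 hs KFacts.ON.Cent.card_K0

/-- the projection to `T0` -/
noncomputable def pr : D →* T0 :=
  (MulEquiv.subgroupCongr map_D).toMonoidHom.comp ((MonoidHom.fst ON A).subgroupMap D)

theorem pr_coe (x : D) : (pr x : ON) = (x : ON × A).1 := rfl

theorem pr_surj : Function.Surjective pr :=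
  (MulEquiv.subgroupCongr map_D).surjective.comp ((MonoidHom.fst ON A).subgroupMap_surjective D)

theorem pr_bij : Function.Bijective pr := by
  have := card_D.1
  have h1 : Finite T0 := Nat.finite_of_card_ne_zero (by rw [card_T0]; norm_num)
  exact (Nat.bijective_iff_surjective_and_card pr).2 ⟨pr_surj, le_antisymm (card_D.2.trans card_T0.ge)
    (Nat.card_le_card_of_surjective pr pr_surj)⟩

/-- `T0 →* C₂³` -/
noncomputable def fT : T0 →* A :=
  ((MonoidHom.snd ON A).comp D.subtype).comp (MulEquiv.ofBijective pr pr_bij).symm.toMonoidHom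

theorem gJ_mem {i : ℕ} (hi : i < 4) : gJ i ∈ T0 := Subgroup.subset_closure ⟨i, hi, rfl⟩

theorem gE_mem {i : ℕ} (hi : i < 4) : gE i ∈ D := Subgroup.subset_closure ⟨i, hi, rfl⟩

theorem fT_gJ {i : ℕ} (hi : i < 4) : fT ⟨gJ i, gJ_mem hi⟩ = eps i := by
  have h1 : (MulEquiv.ofBijective pr pr_bij).symm ⟨gJ i, gJ_mem hi⟩ = ⟨gE i, gE_mem hi⟩ := by
    rw [MulEquiv.symm_apply_eq]
    exact Subtype.ext rfl
  show (MonoidHom.snd ON A) ((MulEquiv.ofBijective pr pr_bij).symm ⟨gJ i, gJ_mem hi⟩ : D) = eps i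
  rw [h1]
  rfl

theorem top_of_gens (R : Subgroup A) (h : ∀ i, Multiplicative.ofAdd (Pi.single i 1 : Fin 3 → ZMod 2) ∈ R) : R = ⊤ := by
  rw [eq_top_iff]
  intro v _
  have h1 : ∀ i, Multiplicative.ofAdd (Pi.single i (Multiplicative.toAdd v i) : Fin 3 → ZMod 2) ∈ R := by
    intro i
    have h2 : ∀ a : ZMod 2, a = 0 ∨ a = 1 := by decide
    rcases h2 (Multiplicative.toAdd v i) with h3 | h3
    · rw [h3, Pi.single_zero]
      exact R.one_mem
    · rw [h3]
      exact h i
  have h2 := R.prod_mem (t := Finset.univ) fun i _ => h1 i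
  have h3 : ∏ i, Multiplicative.ofAdd (Pi.single i (Multiplicative.toAdd v i) : Fin 3 → ZMod 2) = v := by
    rw [← ofAdd_sum, Finset.univ_sum_single]
    rfl
  rwa [h3] at h2

theorem rk_T0 : Rk 3 T0 := by
  refine ⟨fT, ?_⟩
  rw [← MonoidHom.range_eq_top]
  refine top_of_gens _ fun i => ?_
  fin_cases i
  · exact ⟨_, fT_gJ (i := 0) (by norm_num)⟩
  · exact ⟨_, fT_gJ (i := 1) (by norm_num)⟩
  · exact ⟨_, fT_gJ (i := 2) (by norm_num)⟩

/-- the Sylow 2-subgroup -/
theorem rk_S : Rk 3 (TupS.S hs) := by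
  have hfin : Finite ON := KFacts.ON.Cent.finite_ON
  let s' : TupS.S hs := ⟨TupS.s, Or.inr (by rw [TupS.ss hs]; exact T0.one_mem)⟩
  have hidx : (T0.subgroupOf (TupS.S hs)).index = 2 := by
    have h1 := Subgroup.card_mul_index (T0.subgroupOf (TupS.S hs))
    rw [Nat.card_congr (Subgroup.subgroupOfEquivOfLe (TupS.T0_le_S hs)).toEquiv, card_T0,
      TupS.card_S hs KFacts.ON.Cent.card_K0] at h1
    omega
  refine rk_of_compl hidx (s := s') (Subtype.ext (TupS.ss hs)) (fun h => TupS.s_not_mem hs h) ?_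
  exact rk_of_surj (Subgroup.subgroupOfEquivOfLe (TupS.T0_le_S hs)).toMonoidHom
    (Subgroup.subgroupOfEquivOfLe (TupS.T0_le_S hs)).surjective rk_T0

theorem d3_ON {S : Type u} [Group S] (h : Spor.IsoON S) : D3 S := by
  have hfin : Finite ON := KFacts.ON.Cent.finite_ON
  obtain ⟨e⟩ := h
  have : Finite S := Finite.of_equiv _ e.symm.toEquiv
  exact d3_of_equiv e KFacts.ON.Aut.syl rk_S

end Cfsg.Agent.H845.K547.ON
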